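import Cfsg.Agent.H220.EP.ASeven

/-!
# S3499: `EPT` with `A ≅ S₇` has index at most 22265 (helper646)

The points are counted by the fixed points of the transpositions and of the Sylow 7-subgroups.
-/

set_option autoImplicit false

namespace Cfsg.Agent.H646.EPR

open Equiv Equiv.Perm Subgroup MulAction Cfsg.Agent.H839.EP Cfsg.Agent.H284 Cfsg.Agent.H220.EP

theorem swap_mem_SS {Δ : Finset (Fin 7)} {i j : Fin 7} (h : i ∈ Δ ↔ j ∈ Δ) : swap i j ∈ SS Δ := by
  rw [mem_SS]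
  intro k hk
  by_cases h1 : k = i
  · rw [h1, swap_apply_left]
    exact h.1 (h1 ▸ hk)
  · by_cases h2 : k = j
    · rw [h2, swap_apply_right]
      exact h.2 (h2 ▸ hk)
    · rw [swap_apply_of_ne_of_ne h1 h2]
      exact hk

theorem nine_swaps : ∀ Δ : Finset (Fin 7), 1 ≤ Δ.card → Δ.card ≤ 3 →
    9 ≤ (Finset.univ.filter fun p : Fin 7 × Fin 7 => p.1 < p.2 ∧ (p.1 ∈ Δ ↔ p.2 ∈ Δ)).card := by
  decide +kernel

/-- the maximal subgroups of `S₇` which do not contain `A₇` -/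
theorem types_top {L : Subgroup (Perm (Fin 7))} (hL : MaxNot ⊤ L) :
    (∃ Δ : Finset (Fin 7), 1 ≤ Δ.card ∧ Δ.card ≤ 3 ∧ L = SS Δ) ∨
      (∃ Y : Subgroup (Perm (Fin 7)), Nat.card Y = 7 ∧ L = normalizer (Y : Set (Perm (Fin 7)))) := by
  classical
  rcases types le_top hL with ⟨Δ, h1, h2, h3⟩ | ⟨Y, h1, h2⟩ | ⟨D, h1, -, h3⟩
  · exact Or.inl ⟨Δ, h1, h2, by rw [h3, top_inf_eq]⟩
  · exact Or.inr ⟨Y, h1, by rw [h2, top_inf_eq]⟩
  · exfalso
    have h168 : Nat.card ↥(L ⊓ A7) = 168 := h3 ▸ h1.2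
    have hLA : ¬ L ≤ A7 := by
      intro hle
      rcases hL.max A7 hle le_top with h4 | h4
      · exact hL.nalt h4.le
      · have h5 := card_A7
        rw [h4, Subgroup.card_top, card_P7] at h5
        omega
    have h2 : A7.relIndex L ∣ A7.index := relIndex_dvd_index_of_normal _ _
    have h4 : A7.index = 2 := by
      have := card_mul_index A7
      rw [card_A7, card_P7] at this
      omega
    have h5 : A7.relIndex L = 2 := by
      rw [h4] at h2
      rcases (Nat.dvd_prime Nat.prime_two).1 h2 with h | h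
      · rw [relIndex_eq_one] at h
        exact absurd h hLA
      · exact h
    have h336 : Nat.card L = 336 := by
      have h6 := card_mul_index (A7.subgroupOf L)
      rw [relIndex] at h5
      rw [h5, ← inf_subgroupOf_left, card_subgroupOf inf_le_left, h168] at h6
      exact h6.symm
    obtain ⟨R, hR⟩ := Sylow.exists_subgroup_card_pow_prime (G := L) 2 (n := 4) (by rw [h336]; norm_num)
    have hR' : Nat.card (R.map L.subtype) = 2 ^ 4 := by
      rw [card_map_of_injective L.subtype_injective, hR]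
    obtain ⟨g, hg⟩ := conj_mem_of_card (p := 2) (n := 4) (k := 315) (by rw [card_P7]; norm_num) (by norm_num)
      (R.map L.subtype) hR' (swap (0 : Fin 7) 1) (orderOf_eq_prime (by decide) (by decide))
    have hgL : g * swap (0 : Fin 7) 1 * g⁻¹ ∈ L := by
      obtain ⟨x, -, hx⟩ := hg
      rw [← hx]
      exact x.2
    have hsw : (g * swap (0 : Fin 7) 1 * g⁻¹).IsSwap := by
      rw [← swap_apply_apply]
      exact swap_isSwap_iff.2 (fun h => absurd (g.injective h) (by decide))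
    have htop : L = ⊤ := subgroup_eq_top_of_swap_mem (by norm_num) (by
      rw [← Nat.card_eq_fintype_card (α := L), h336, Fintype.card_fin]
      norm_num) hgL hsw
    apply hL.nalt
    rw [htop]
    exact le_top

theorem ncard_top : {L : Subgroup (Perm (Fin 7)) | MaxNot ⊤ L}.ncard ≤ 183 := by
  have hsub : {L : Subgroup (Perm (Fin 7)) | MaxNot ⊤ L} ⊆
      (fun Δ : Finset (Fin 7) => SS Δ) '' {Δ : Finset (Fin 7) | 1 ≤ Δ.card ∧ Δ.card ≤ 3} ∪
        (fun Y : Subgroup (Perm (Fin 7)) => normalizer (Y : Set (Perm (Fin 7)))) '' Ys 7 ⊤ := by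
    intro L hL
    rcases types_top hL with ⟨Δ, h1, h3, h4⟩ | ⟨Y, h1, h2⟩
    · exact Or.inl ⟨Δ, ⟨h1, h3⟩, h4.symm⟩
    · exact Or.inr ⟨Y, ⟨le_top, h1⟩, h2.symm⟩
  refine (Set.ncard_le_ncard hsub (Set.toFinite _)).trans ?_
  refine (Set.ncard_union_le _ _).trans ?_
  have h1 : {Δ : Finset (Fin 7) | 1 ≤ Δ.card ∧ Δ.card ≤ 3}.ncard = 63 := by
    have h2 : {Δ : Finset (Fin 7) | 1 ≤ Δ.card ∧ Δ.card ≤ 3} =
        ((Finset.univ.filter (fun D : Finset (Fin 7) => 1 ≤ D.card ∧ D.card ≤ 3) : Finset (Finset (Fin 7))) :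
          Set (Finset (Fin 7))) := by
      ext Δ
      simp
    rw [h2, Set.ncard_coe_finset]
    decide
  have h2 := Set.ncard_image_le (f := fun Δ : Finset (Fin 7) => SS Δ)
    (Set.toFinite {Δ : Finset (Fin 7) | 1 ≤ Δ.card ∧ Δ.card ≤ 3})
  have h3 := Set.ncard_image_le (f := fun Y : Subgroup (Perm (Fin 7)) => normalizer (Y : Set (Perm (Fin 7))))
    (Set.toFinite (Ys 7 (⊤ : Subgroup (Perm (Fin 7)))))
  have h6 := card_Ys
  omega

section frame

variable {Q : Type*} [Group Q] {A N : Subgroup Q} {Γ : Subgroup (MulAut Q)}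
  {e : N ≃* alternatingGroup (Fin 7)} {ρ : Γ →* Perm (Fin 7)}

theorem fix_iff (hR : Rho N Γ e ρ) (h : EPT A Γ) {x : Q} (a : A) :
    (a : Q) • (x : Q ⧸ A) = x ↔ ρ (conjA h a) ∈ LL h ρ x := by
  rw [← hR.mem_M0 h, mem_cj]
  have h2 : (a : Q) • (x : Q ⧸ A) = (((a : Q) * x : Q) : Q ⧸ A) := rfl
  rw [h2, eq_comm, QuotientGroup.eq, mul_assoc]

/-- **`A ≅ S₇`** -/
theorem index_le_S7 [Finite Q] (h : EPT A Γ) (hS : Cfsg.Agent.H419.EP.HasSoc A (alternatingGroup (Fin 7)))
    (hA : Nat.card A = 5040) : A.index ≤ 22265 := by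
  classical
  obtain ⟨N, h1, h2, h3, ⟨e⟩⟩ := hS
  have hS : Soc A N := ⟨h1, h2, h3⟩
  obtain ⟨ρ, hR⟩ := exists_rho hS h le_rfl e
  -- `A ≃ S₇`
  have hinj : Function.Injective (ρ.comp (conjA h)) := by
    refine hR.inj.comp ?_
    rw [injective_iff_map_eq_one]
    intro a ha
    apply Subtype.ext
    apply hS.cen a a.2
    intro x _
    have h4 : (MulAut.conj (a : Q)) = 1 := congrArg Subtype.val ha
    have h5 : MulAut.conj (a : Q) x = x := by rw [h4]; rfl
    rw [MulAut.conj_apply, mul_inv_eq_iff_eq_mul] at h5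
    exact h5
  have hsurj : Function.Surjective (ρ.comp (conjA h)) :=
    ((Nat.bijective_iff_injective_and_card _).2 ⟨hinj, by rw [hA, card_P7]⟩).2
  have htop : ρ.range = ⊤ := by
    rw [MonoidHom.range_eq_top]
    intro g
    obtain ⟨a, ha⟩ := hsurj g
    exact ⟨_, ha⟩
  choose f hf using hsurj
  have hf1 : ∀ g : Perm (Fin 7), g ≠ 1 → (f g : Q) ≠ 1 := by
    intro g hg h4
    apply hg
    rw [← hf g, Subtype.ext (a1 := f g) (a2 := 1) h4, map_one]
  have hr : {M : Subgroup Q | ∃ x, x ∉ A ∧ M = A ⊓ cj x A}.ncard ≤ 183 := by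
    refine (hR.ncard_le hS h (by norm_num)).trans ?_
    rw [htop]
    exact ncard_top
  set a0 : Q ⧸ A := ((1 : Q) : Q ⧸ A) with ha0
  have hne : ∀ x : Q, (x : Q ⧸ A) = a0 ↔ x ∈ A := by
    intro x
    rw [ha0, eq_comm, QuotientGroup.eq, inv_one, one_mul]
  have hfix0 : ∀ a : A, (a : Q) • a0 = a0 := by
    intro a
    have h4 : (a : Q) • a0 = (((a : Q) * 1 : Q) : Q ⧸ A) := rfl
    rw [h4, hne, mul_one]
    exact a.2
  -- fixed points different from `a0`
  have hfix : ∀ (a : A), (a : Q) ≠ 1 → {c : Q ⧸ A | c ≠ a0 ∧ (a : Q) • c = c}.ncard ≤ 182 := by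
    intro a ha
    have h4 := (h.fix_le a ha).trans hr
    have h5 : {c : Q ⧸ A | (a : Q) • c = c} = insert a0 {c : Q ⧸ A | c ≠ a0 ∧ (a : Q) • c = c} := by
      ext c
      simp only [Set.mem_ofPred_eq, Set.mem_insert_iff]
      constructor
      · intro h6
        by_cases h7 : c = a0
        · exact Or.inl h7
        · exact Or.inr ⟨h7, h6⟩
      · rintro (rfl | h6)
        · exact hfix0 a
        · exact h6.2
    rw [h5, Set.ncard_insert_of_notMem (fun h6 => h6.1 rfl) (Set.toFinite _)] at h4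
    omega
  set T : Set (Fin 7 × Fin 7) := {p | p.1 < p.2} with hT
  have hTc : T.ncard = 21 := by
    have h4 : T = ((Finset.univ.filter (fun p : Fin 7 × Fin 7 => p.1 < p.2) : Finset (Fin 7 × Fin 7)) :
        Set (Fin 7 × Fin 7)) := by
      ext p
      simp [hT]
    rw [h4, Set.ncard_coe_finset]
    decide
  set X1 : Set (Q ⧸ A) := {c | c ≠ a0 ∧ 9 ≤ {p : Fin 7 × Fin 7 | p ∈ T ∧ (f (swap p.1 p.2) : Q) • c = c}.ncard} with hX1
  set X2 : Set (Q ⧸ A) := {c | c ≠ a0 ∧ ∃ Y ∈ Ys 7 (⊤ : Subgroup (Perm (Fin 7))), ∀ y ∈ Y, (f y : Q) • c = c} with hX2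
  have hcov : ∀ c : Q ⧸ A, c ≠ a0 → c ∈ X1 ∪ X2 := by
    intro c hc
    obtain ⟨x, rfl⟩ := QuotientGroup.mk_surjective c
    have hx : x ∉ A := fun hx => hc ((hne x).2 hx)
    have hL := hR.maxNot hS h (by norm_num) hx
    rw [htop] at hL
    rcases types_top hL with ⟨Δ, h4, h5, h6⟩ | ⟨Y, h4, h5⟩
    · left
      refine ⟨hc, (nine_swaps Δ h4 h5).trans ?_⟩
      rw [← Set.ncard_coe_finset]
      refine Set.ncard_le_ncard ?_ (Set.toFinite _)
      intro p hp
      rw [Finset.mem_coe, Finset.mem_filter] at hp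
      refine ⟨hp.2.1, (fix_iff hR h _).2 ?_⟩
      have h7 := hf (swap p.1 p.2)
      rw [MonoidHom.comp_apply] at h7
      rw [h7, h6]
      exact swap_mem_SS hp.2.2
    · right
      refine ⟨hc, Y, ⟨le_top, h4⟩, fun y hy => (fix_iff hR h _).2 ?_⟩
      have h7 := hf y
      rw [MonoidHom.comp_apply] at h7
      rw [h7, h5]
      exact le_normalizer hy
  have hc1 : X1.ncard * 9 ≤ 21 * 182 := by
    rw [← hTc]
    refine ncard_mul_le X1 T (fun c p => (f (swap p.1 p.2) : Q) • c = c) (fun c hc => hc.2) ?_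
    intro p hp
    refine le_trans (Set.ncard_le_ncard ?_ (Set.toFinite _)) (hfix (f (swap p.1 p.2)) (hf1 _ ?_))
    · rintro c ⟨h4, h5⟩
      exact ⟨h4.1, h5⟩
    · intro h4
      have h5 : p.1 = p.2 := swap_eq_one_iff.1 h4
      exact absurd hp (by rw [hT, Set.mem_ofPred_eq, h5]; exact lt_irrefl _)
  have hc2 : X2.ncard * 1 ≤ 120 * 182 := by
    rw [← card_Ys]
    refine ncard_mul_le X2 (Ys 7 ⊤) (fun c Y => ∀ y ∈ Y, (f y : Q) • c = c) ?_ ?_
    · rintro c ⟨h4, Y, hY, h5⟩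
      exact (Set.ncard_pos (Set.toFinite _)).2 ⟨Y, hY, h5⟩
    · intro Y hY
      have hYt : Y ≠ ⊥ := by
        intro h4
        have h5 := hY.2
        rw [h4, Subgroup.card_bot] at h5
        norm_num at h5
      obtain ⟨y, hy⟩ := (Subgroup.ne_bot_iff_exists_ne_one).1 hYt
      refine le_trans (Set.ncard_le_ncard ?_ (Set.toFinite _)) (hfix (f y) (hf1 _ fun h4 => hy (Subtype.ext h4)))
      rintro c ⟨h4, h5⟩
      exact ⟨h4.1, h5 y y.2⟩
  have huniv : (Set.univ : Set (Q ⧸ A)) ⊆ insert a0 (X1 ∪ X2) := by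
    intro c _
    by_cases hc : c = a0
    · exact Or.inl hc
    · exact Or.inr (hcov c hc)
  have h4 := Set.ncard_le_ncard huniv (Set.toFinite _)
  have h5 := Set.ncard_insert_le a0 (X1 ∪ X2)
  have h6 := Set.ncard_union_le X1 X2
  rw [Set.ncard_univ] at h4
  rw [index]
  omega

/-- `A ≅ A₇` or `S₇` -/
theorem card_cases [Finite Q] (h : EPT A Γ) (hS : Cfsg.Agent.H419.EP.HasSoc A (alternatingGroup (Fin 7))) :
    Nat.card A = 2520 ∨ Nat.card A = 5040 := by
  obtain ⟨N, h1, h2, h3, ⟨e⟩⟩ := hS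
  have hS : Soc A N := ⟨h1, h2, h3⟩
  obtain ⟨ρ, hR⟩ := exists_rho hS h le_rfl e
  have hN : Nat.card N = 2520 := by rw [Nat.card_congr e.toEquiv, card_A7]
  have hinj : Function.Injective (ρ.comp (conjA h)) := by
    refine hR.inj.comp ?_
    rw [injective_iff_map_eq_one]
    intro a ha
    apply Subtype.ext
    apply hS.cen a a.2
    intro x _
    have h4 : (MulAut.conj (a : Q)) = 1 := congrArg Subtype.val ha
    have h5 : MulAut.conj (a : Q) x = x := by rw [h4]; rfl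
    rw [MulAut.conj_apply, mul_inv_eq_iff_eq_mul] at h5
    exact h5
  have hA1 : Nat.card A ∣ 5040 := by
    rw [← card_P7]
    exact card_dvd_of_injective _ hinj
  have hA2 : 2520 ∣ Nat.card A := by
    rw [← hN]
    exact card_dvd_of_le h1
  obtain ⟨k, hk⟩ := hA2
  rw [hk] at hA1 ⊢
  have h4 : k ∣ 2 := Nat.dvd_of_mul_dvd_mul_left (k := 2520) (by norm_num) hA1
  rcases (Nat.dvd_prime Nat.prime_two).1 h4 with h5 | h5
  · left; rw [h5]
  · right; rw [h5]

/-- **`A₇` in `PSp₄(7)`** -/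
theorem seven_sp4 [Finite Q] (h : EPT A Γ) (hS : Cfsg.Agent.H419.EP.HasSoc A (alternatingGroup (Fin 7)))
    (hQ : Nat.card Q = 138297600) : False := by
  have h1 := card_mul_index A
  rw [hQ] at h1
  rcases card_cases h hS with h2 | h2
  · have h3 := index_le_seven h hS
    rw [h2] at h1
    omega
  · have h3 := index_le_S7 h hS h2
    rw [h2] at h1
    omega

end frame

end Cfsg.Agent.H646.EPR
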